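import Mathlib
import Cfsg.Agent.PLocal.ThompsonJA
import Cfsg.Agent.PLocal.ZJ

/-!
# `Z(J(T / Z))`, pulled back to `T`

`relD Z T` is the intersection of the subgroups `X`, `Z ≤ X ≤ T`, of largest order with `[X, X] ≤ Z`.
For normal `Z` it is the preimage of `Z(J(T / Z))` (abelian version of `J`).
-/

set_option autoImplicit false

namespace Cfsg.Agent.H278.RelZJ

open Subgroup Cfsg

variable {G H : Type*} [Group G] [Group H]

/-- `X` is abelian modulo `Z`. -/
def RelAb (Z X : Subgroup G) : Prop := ∀ x ∈ X, ∀ y ∈ X, x * y * x⁻¹ * y⁻¹ ∈ Z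

/-- The subgroups between `Z` and `T` which are abelian modulo `Z`, of largest order. -/
def relMax (Z T : Subgroup G) : Set (Subgroup G) :=
  {X | Z ≤ X ∧ X ≤ T ∧ RelAb Z X ∧
    ∀ Y : Subgroup G, Z ≤ Y → Y ≤ T → RelAb Z Y → Nat.card Y ≤ Nat.card X}

/-- The intersection of the members of `relMax Z T`. -/
def relD (Z T : Subgroup G) : Subgroup G := sInf (relMax Z T)

theorem mem_relMax {Z T X : Subgroup G} : X ∈ relMax Z T ↔ Z ≤ X ∧ X ≤ T ∧ RelAb Z X ∧
    ∀ Y : Subgroup G, Z ≤ Y → Y ≤ T → RelAb Z Y → Nat.card Y ≤ Nat.card X := Iff.rfl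

theorem relD_def (Z T : Subgroup G) : relD Z T = sInf (relMax Z T) := rfl

theorem relMax_nonempty [Finite G] {Z T : Subgroup G} (h : Z ≤ T) : (relMax Z T).Nonempty := by
  obtain ⟨A, hA, hmax⟩ := Set.exists_max_image {A : Subgroup G | Z ≤ A ∧ A ≤ T ∧ RelAb Z A}
    (fun A => Nat.card A) (Set.toFinite _)
    ⟨Z, le_rfl, h, fun x hx y hy => mul_mem (mul_mem (mul_mem hx hy) (inv_mem hx)) (inv_mem hy)⟩
  exact ⟨A, hA.1, hA.2.1, hA.2.2, fun B h1 h2 h3 => hmax B ⟨h1, h2, h3⟩⟩

theorem le_relD (Z T : Subgroup G) : Z ≤ relD Z T := le_sInf fun _ hX => hX.1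

theorem relD_le [Finite G] {Z T : Subgroup G} (h : Z ≤ T) : relD Z T ≤ T := by
  obtain ⟨X, hX⟩ := relMax_nonempty h
  exact (sInf_le hX).trans hX.2.1

theorem relAb_map (f : G →* H) {Z X : Subgroup G} (h : RelAb Z X) : RelAb (Z.map f) (X.map f) := by
  rintro _ ⟨x, hx, rfl⟩ _ ⟨y, hy, rfl⟩
  exact ⟨x * y * x⁻¹ * y⁻¹, h x hx y hy, by simp⟩

theorem relAb_comap (f : G →* H) {Z X : Subgroup H} (h : RelAb Z X) :
    RelAb (Z.comap f) (X.comap f) := by
  intro x hx y hy
  rw [Subgroup.mem_comap]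
  have := h (f x) hx (f y) hy
  simpa using this

theorem map_mem_relMax (f : G →* H) (hf : Function.Injective f) {Z T X : Subgroup G}
    (hX : X ∈ relMax Z T) : X.map f ∈ relMax (Z.map f) (T.map f) := by
  obtain ⟨h1, h2, h3, h4⟩ := hX
  refine ⟨map_mono h1, map_mono h2, relAb_map f h3, fun Y hZY hYT hY => ?_⟩
  have hYf : (Y.comap f).map f = Y := by
    rw [Subgroup.map_comap_eq, inf_eq_right]
    exact hYT.trans (Subgroup.map_le_range _ _)
  have h5 : Z ≤ Y.comap f := by rw [← Subgroup.map_le_iff_le_comap]; exact hZY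
  have h6 : Y.comap f ≤ T := by
    have := Subgroup.comap_mono (f := f) hYT
    rwa [Subgroup.comap_map_eq_self_of_injective hf] at this
  have h7 : RelAb Z (Y.comap f) := by
    have := relAb_comap f hY
    rwa [Subgroup.comap_map_eq_self_of_injective hf] at this
  have h8 := h4 _ h5 h6 h7
  rw [PLocal.ThompsonJA.card_map_of_injective f hf, ← hYf,
    PLocal.ThompsonJA.card_map_of_injective f hf]
  exact h8

theorem relMax_map (f : G →* H) (hf : Function.Injective f) (Z T : Subgroup G) :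
    relMax (Z.map f) (T.map f) = Subgroup.map f '' relMax Z T := by
  apply Set.Subset.antisymm
  · rintro Y ⟨h1, h2, h3, h4⟩
    have hYf : (Y.comap f).map f = Y := by
      rw [Subgroup.map_comap_eq, inf_eq_right]
      exact h2.trans (Subgroup.map_le_range _ _)
    refine ⟨Y.comap f, ⟨?_, ?_, ?_, ?_⟩, hYf⟩
    · rw [← Subgroup.map_le_iff_le_comap]; exact h1
    · have := Subgroup.comap_mono (f := f) h2
      rwa [Subgroup.comap_map_eq_self_of_injective hf] at this
    · have := relAb_comap f h3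
      rwa [Subgroup.comap_map_eq_self_of_injective hf] at this
    · intro X hZX hXT hX
      have := h4 (X.map f) (map_mono hZX) (map_mono hXT) (relAb_map f hX)
      rw [PLocal.ThompsonJA.card_map_of_injective f hf] at this
      rw [← PLocal.ThompsonJA.card_map_of_injective f hf (Y.comap f), hYf]
      exact this
  · rintro _ ⟨X, hX, rfl⟩
    exact map_mem_relMax f hf hX

theorem map_relD [Finite G] (f : G →* H) (hf : Function.Injective f) {Z T : Subgroup G} (h : Z ≤ T) :
    (relD Z T).map f = relD (Z.map f) (T.map f) := by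
  rw [relD_def, relD_def, relMax_map f hf]
  haveI : Nonempty (relMax Z T) := (relMax_nonempty h).to_subtype
  rw [sInf_eq_iInf', Subgroup.map_iInf _ hf, sInf_image', ]

theorem card_comap_mk [Finite G] (Z : Subgroup G) [Z.Normal] (Y : Subgroup (G ⧸ Z)) :
    Nat.card (Y.comap (QuotientGroup.mk' Z)) = Nat.card Z * Nat.card Y := by
  have hs : Function.Surjective (QuotientGroup.mk' Z) := QuotientGroup.mk'_surjective Z
  have h1 := Subgroup.card_mul_index (Y.comap (QuotientGroup.mk' Z))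
  rw [Subgroup.index_comap_of_surjective _ hs] at h1
  have h2 := Subgroup.card_mul_index Y
  have h3 := Subgroup.card_mul_index Z
  have h4 : Nat.card (G ⧸ Z) = Z.index := rfl
  have h5 : 0 < Y.index := Nat.pos_of_ne_zero Y.index_ne_zero_of_finite
  have h6 : Nat.card (Y.comap (QuotientGroup.mk' Z)) * Y.index = Nat.card Z * Nat.card Y * Y.index := by
    rw [h1, mul_assoc, h2, h4, h3]
  exact Nat.eq_of_mul_eq_mul_right h5 h6

theorem relAb_iff (Z : Subgroup G) [Z.Normal] (X : Subgroup G) :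
    RelAb Z X ↔ IsElementaryAbelian 0 (X.map (QuotientGroup.mk' Z)) := by
  rw [PLocal.ZJ.isElementaryAbelian_def, PLocal.ThompsonJA.isMulCommutative_iff]
  have key : ∀ x y : G, x * y * x⁻¹ * y⁻¹ ∈ Z ↔
      (QuotientGroup.mk' Z) x * (QuotientGroup.mk' Z) y =
        (QuotientGroup.mk' Z) y * (QuotientGroup.mk' Z) x := by
    intro x y
    rw [← QuotientGroup.eq_one_iff, ← QuotientGroup.mk'_apply, map_mul, map_mul, map_mul, map_inv,
      map_inv, mul_inv_eq_one, mul_inv_eq_iff_eq_mul]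
  constructor
  · intro h
    refine ⟨?_, fun a _ => pow_zero a⟩
    rintro _ ⟨x, hx, rfl⟩ _ ⟨y, hy, rfl⟩
    exact (key x y).mp (h x hx y hy)
  · rintro ⟨h, -⟩ x hx y hy
    exact (key x y).mpr (h _ ⟨x, hx, rfl⟩ _ ⟨y, hy, rfl⟩)

theorem map_comap_mk (Z : Subgroup G) [Z.Normal] (Y : Subgroup (G ⧸ Z)) :
    (Y.comap (QuotientGroup.mk' Z)).map (QuotientGroup.mk' Z) = Y :=
  Subgroup.map_comap_eq_self_of_surjective (QuotientGroup.mk'_surjective Z) Y

theorem comap_map_mk (Z : Subgroup G) [Z.Normal] {X : Subgroup G} (h : Z ≤ X) :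
    (X.map (QuotientGroup.mk' Z)).comap (QuotientGroup.mk' Z) = X := by
  rw [Subgroup.comap_map_eq, QuotientGroup.ker_mk', sup_eq_left]
  exact h

theorem le_comap_mk (Z : Subgroup G) [Z.Normal] (Y : Subgroup (G ⧸ Z)) :
    Z ≤ Y.comap (QuotientGroup.mk' Z) := by
  conv_lhs => rw [← QuotientGroup.ker_mk' Z]
  exact MonoidHom.ker_le_comap _ _

/-- The relation with the quotient. -/
theorem relMax_eq [Finite G] (Z T : Subgroup G) [Z.Normal] (h : Z ≤ T) :
    relMax Z T = (fun Y => Y.comap (QuotientGroup.mk' Z)) ''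
      PLocal.ZJ.maxAb 0 (T.map (QuotientGroup.mk' Z)) := by
  have hZpos : 0 < Nat.card Z := Nat.card_pos
  apply Set.Subset.antisymm
  · rintro X ⟨h1, h2, h3, h4⟩
    refine ⟨X.map (QuotientGroup.mk' Z), ⟨map_mono h2, (relAb_iff Z X).mp h3, ?_⟩, comap_map_mk Z h1⟩
    intro B hB hBe
    have h5 : B.comap (QuotientGroup.mk' Z) ≤ T := by
      have := Subgroup.comap_mono (f := QuotientGroup.mk' Z) hB
      rwa [comap_map_mk Z h] at this
    have h6 : RelAb Z (B.comap (QuotientGroup.mk' Z)) := by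
      rw [relAb_iff, map_comap_mk]; exact hBe
    have h7 := h4 _ (le_comap_mk Z B) h5 h6
    rw [← comap_map_mk Z h1, card_comap_mk, card_comap_mk] at h7
    exact Nat.le_of_mul_le_mul_left h7 hZpos
  · rintro _ ⟨B, ⟨h1, h2, h3⟩, rfl⟩
    refine ⟨le_comap_mk Z B, ?_, ?_, ?_⟩
    · have := Subgroup.comap_mono (f := QuotientGroup.mk' Z) h1
      rwa [comap_map_mk Z h] at this
    · rw [relAb_iff, map_comap_mk]; exact h2
    · intro Y hZY hYT hY
      have h4 := h3 (Y.map (QuotientGroup.mk' Z)) (map_mono hYT) ((relAb_iff Z Y).mp hY)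
      change Nat.card Y ≤ Nat.card (B.comap (QuotientGroup.mk' Z))
      rw [← comap_map_mk Z hZY, card_comap_mk, card_comap_mk]
      exact Nat.mul_le_mul_left _ h4

theorem relD_eq_comap [Finite G] (Z T : Subgroup G) [Z.Normal] (h : Z ≤ T) :
    relD Z T = (centerThompsonAOf (T.map (QuotientGroup.mk' Z))).comap (QuotientGroup.mk' Z) := by
  rw [relD_def, relMax_eq Z T h, PLocal.ZJ.centerThompsonAOf_eq, sInf_image, sInf_eq_iInf,
    Subgroup.comap_iInf]
  refine iInf_congr fun Y => ?_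
  rw [Subgroup.comap_iInf]

/-- `Z < relD Z T` for a `p`-group `T ≠ Z`. -/
theorem relD_ne [Finite G] {p : ℕ} [Fact p.Prime] (Z T : Subgroup G) [Z.Normal] (h : Z ≤ T)
    (hT : IsPGroup p T) (hne : T ≠ Z) : relD Z T ≠ Z := by
  intro h1
  rw [relD_eq_comap Z T h] at h1
  have h2 := congrArg (Subgroup.map (QuotientGroup.mk' Z)) h1
  rw [map_comap_mk, (Subgroup.map_eq_bot_iff _).mpr (le_of_eq (QuotientGroup.ker_mk' Z).symm)] at h2
  refine PLocal.ThompsonJA.centerThompsonAOf_ne_bot (T.map (QuotientGroup.mk' Z)) (hT.map _) ?_ h2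
  intro h3
  rw [Subgroup.map_eq_bot_iff, QuotientGroup.ker_mk'] at h3
  exact hne (le_antisymm h3 h)

end Cfsg.Agent.H278.RelZJ
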