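import Mathlib
import Cfsg.Agent.H278.Automizer
import Cfsg.Agent.H278.RelZJ
import Cfsg.Agent.S0659

/-!
# A self-centralizing characteristic subgroup deciding normal `p`-complements

For odd `p` every finite `p`-group `S` has a characteristic subgroup `K` with `C_S(K) ≤ K` such that
a finite group with Sylow `p`-subgroup `S` has a normal `p`-complement as soon as `N_G(K)` has one.
-/

set_option autoImplicit false

universe u

namespace Cfsg.Agent.H278.CharComplement

open Subgroup Cfsg
open Cfsg.Agent.Transfer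
open Cfsg.Agent.Transfer.FusionBasic
open Cfsg.Agent.H278.Automizer
open Cfsg.Agent.H278.RelZJ

/-- Central `p`-extensions. -/
theorem hnc_of_central_quotient {C : Type*} [Group C] [Finite C] {p : ℕ} [Fact p.Prime]
    (Z : Subgroup C) [Z.Normal] (hZp : IsPGroup p Z) (hZ : Z ≤ center C)
    (h : HasNormalPComplement p (C ⧸ Z)) : HasNormalPComplement p C := by
  obtain ⟨M, hM, h1, h2⟩ := NormalPComplement.hasNormalPComplement_iff.mp h
  have hLn : (M.comap (QuotientGroup.mk' Z)).Normal := hM.comap _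
  have hZL : Z ≤ M.comap (QuotientGroup.mk' Z) := le_comap_mk Z M
  -- a Sylow subgroup of the preimage
  have hS : SylIn p Z (M.comap (QuotientGroup.mk' Z)) := by
    refine ⟨hZL, hZp, fun R hZR hRL hR => le_antisymm ?_ hZR⟩
    intro r hr
    have h3 : (QuotientGroup.mk' Z) r ∈ M := hRL hr
    have h4 : (QuotientGroup.mk' Z) r = 1 :=
      eq_one_of_mem_of_coprime (hR.map (QuotientGroup.mk' Z)) h1 ⟨r, hr, rfl⟩ h3
    exact (QuotientGroup.eq_one_iff r).mp h4
  obtain ⟨T, hT⟩ := hS.exists_sylow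
  have hTc : (T : Subgroup (M.comap (QuotientGroup.mk' Z))) ≤ center _ := by
    intro t ht
    have h3 : (t : C) ∈ (T : Subgroup (M.comap (QuotientGroup.mk' Z))).map
        (M.comap (QuotientGroup.mk' Z)).subtype := ⟨t, ht, rfl⟩
    rw [hT] at h3
    rw [Subgroup.mem_center_iff]
    intro c
    exact Subtype.ext ((Subgroup.mem_center_iff.mp (hZ h3)) c)
  have h3 := hnc_of_central_sylow T hTc
  refine hnc_of_isPGroup_quotient _ h3 ?_
  rw [NormalPComplement.isPGroup_quotient_iff] at h2 ⊢
  intro g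
  obtain ⟨k, hk⟩ := h2 ((QuotientGroup.mk' Z) g)
  refine ⟨k, ?_⟩
  rw [Subgroup.mem_comap, map_pow]
  exact hk

/-- The local step. `K ≤ P` with `P ≤ N_G(K)`, `C₀ = C_P(K)`, `Z = C₀ ∩ K`, `D = relD Z C₀`. -/
theorem step {G : Type u} [Group G] [Finite G] {p : ℕ} [Fact p.Prime] (hp : p ≠ 2) (P : Sylow p G)
    (K : Subgroup G) (hPK : (P : Subgroup G) ≤ normalizer (K : Set G))
    (C₀ Z : Subgroup G) (hC₀ : C₀ = (P : Subgroup G) ⊓ centralizer (K : Set G)) (hZ : Z = C₀ ⊓ K)
    (h : HasNormalPComplement p (normalizer ((K ⊔ relD Z C₀ : Subgroup G) : Set G))) :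
    HasNormalPComplement p (normalizer (K : Set G)) := by
  have hZC₀ : Z ≤ C₀ := by rw [hZ]; exact inf_le_left
  have hC₀C : C₀ ≤ centralizer (K : Set G) := by rw [hC₀]; exact inf_le_right
  have hC₀P : C₀ ≤ (P : Subgroup G) := by rw [hC₀]; exact inf_le_left
  have hZK : Z ≤ K := by rw [hZ]; exact inf_le_right
  obtain ⟨D, hD⟩ : ∃ D, D = relD Z C₀ := ⟨_, rfl⟩
  have hDC₀ : D ≤ C₀ := by rw [hD]; exact relD_le hZC₀
  rw [← hD] at h
  -- `P` is Sylow in `N(K)`, `C₀` is Sylow in `C(K)`
  have hSN : SylIn p (P : Subgroup G) (normalizer (K : Set G)) :=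
    ⟨hPK, P.isPGroup', fun R hR _ hRp => P.is_maximal' hRp hR⟩
  have hCN : centralizer (K : Set G) ≤ normalizer (K : Set G) :=
    Subgroup.centralizer_le_normalizer (K : Set G)
  have hSC : SylIn p C₀ (centralizer (K : Set G)) := by
    rw [hC₀]
    exact hSN.inf hCN (normalizer_le_normalizer_centralizer K)
  obtain ⟨T, hT⟩ := hSC.exists_sylow
  -- the group `C = C_G(K)` and its central subgroup
  let C : Subgroup G := centralizer (K : Set G)
  let ZC : Subgroup C := Z.subgroupOf C
  have hZCmap : ZC.map C.subtype = Z := by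
    rw [subgroupOf_map_subtype, inf_eq_left]
    exact hZC₀.trans hC₀C
  have hZCc : ZC ≤ center C := by
    intro z hz
    rw [mem_subgroupOf] at hz
    rw [Subgroup.mem_center_iff]
    intro c
    exact Subtype.ext ((Subgroup.mem_centralizer_iff.mp c.2) _ (hZK hz)).symm
  have hZCn : ZC.Normal := ⟨fun z hz c => by
    have := (Subgroup.mem_center_iff.mp (hZCc hz)) c
    rw [this, mul_inv_cancel_right]; exact hz⟩
  have hZCp : IsPGroup p ZC :=
    (P.isPGroup'.to_le (hZC₀.trans hC₀P)).comap_of_injective _ (Subgroup.subtype_injective _)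
  have hZCT : ZC ≤ (T : Subgroup C) := by
    intro z hz
    rw [mem_subgroupOf] at hz
    have h1 : (z : G) ∈ (T : Subgroup C).map C.subtype := by rw [hT]; exact hZC₀ hz
    obtain ⟨t, ht, htz⟩ := h1
    have : t = z := Subtype.ext htz
    rwa [← this]
  have hDmap : (relD ZC (T : Subgroup C)).map C.subtype = D := by
    rw [map_relD C.subtype C.subtype_injective hZCT, hZCmap, hT, hD]
  -- elements of `N_G(K)` normalizing `D` normalize `K ⊔ D`
  have hnorm : ∀ g : G, g ∈ normalizer (K : Set G) → g ∈ normalizer (D : Set G) →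
      g ∈ normalizer ((K ⊔ D : Subgroup G) : Set G) := by
    intro g h1 h2
    rw [Subgroup.mem_normalizer_iff_map_conj_eq] at h1 h2 ⊢
    rw [Subgroup.map_sup, h1, h2]
  -- the normal complement of `C`
  have hC : HasNormalPComplement p C := by
    refine hnc_of_central_quotient ZC hZCp hZCc ?_
    have hs : Function.Surjective (QuotientGroup.mk' ZC) := QuotientGroup.mk'_surjective ZC
    refine S0659.result hp (T.mapSurjective hs) ?_
    rw [Sylow.coe_mapSurjective]
    have h1 : centerThompsonAOf ((T : Subgroup C).map (QuotientGroup.mk' ZC)) =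
        (relD ZC (T : Subgroup C)).map (QuotientGroup.mk' ZC) := by
      rw [relD_eq_comap ZC _ hZCT, map_comap_mk]
    rw [h1]
    -- the normalizer of the image
    have h2 : normalizer (((relD ZC (T : Subgroup C)).map (QuotientGroup.mk' ZC) :
        Subgroup (C ⧸ ZC)) : Set (C ⧸ ZC)) ≤
        (normalizer ((relD ZC (T : Subgroup C)) : Set C)).map (QuotientGroup.mk' ZC) := by
      intro x hx
      obtain ⟨c, rfl⟩ := hs x
      refine ⟨c, ?_, rfl⟩
      change c ∈ normalizer ((relD ZC (T : Subgroup C)) : Set C)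
      rw [Subgroup.mem_normalizer_iff_map_conj_eq] at hx ⊢
      have h3 : ((relD ZC (T : Subgroup C)).map (MulAut.conj c).toMonoidHom).map
          (QuotientGroup.mk' ZC) = (relD ZC (T : Subgroup C)).map (QuotientGroup.mk' ZC) := by
        rw [← hx, Subgroup.map_map, Subgroup.map_map]
        congr 1
      have h4 : ZC ≤ (relD ZC (T : Subgroup C)).map (MulAut.conj c).toMonoidHom := by
        have := map_mono (f := (MulAut.conj c).toMonoidHom) (le_relD ZC (T : Subgroup C))
        refine le_trans (le_of_eq ?_) this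
        exact (map_conj_eq_of_mem_normalizer (by rw [normalizer_eq_top]; trivial)).symm
      have h5 := congrArg (Subgroup.comap (QuotientGroup.mk' ZC)) h3
      rwa [comap_map_mk ZC h4, comap_map_mk ZC (le_relD _ _)] at h5
    refine Transfer.PNilpotentBasic.hnc_of_le h2 (Transfer.PNilpotentBasic.hnc_map _ _ ?_)
    refine Transfer.PNilpotentBasic.hnc_of_map_le C.subtype C.subtype_injective _
      (normalizer ((K ⊔ D : Subgroup G) : Set G)) ?_ h
    rintro _ ⟨c, hc, rfl⟩
    refine hnorm _ (hCN c.2) ?_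
    have h3 : (c : G) ∈ (normalizer ((relD ZC (T : Subgroup C)) : Set C)).map C.subtype :=
      ⟨c, hc, rfl⟩
    have h4 := Subgroup.le_normalizer_map C.subtype h3
    rwa [hDmap] at h4
  -- `N_G(K)`
  let N : Subgroup G := normalizer (K : Set G)
  obtain ⟨O, hOn, hO1, hO2⟩ := NormalPComplement.hasNormalPComplement_iff.mp hC
  -- the complement of `C` as a subgroup of `G`, normal in `N`
  obtain ⟨OG, hOG⟩ : ∃ OG : Subgroup G, OG = O.map C.subtype := ⟨_, rfl⟩
  have hOGC : OG ≤ C := by rw [hOG]; exact map_subtype_le _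
  have hOGmem : ∀ x : G, x ∈ OG ↔ x ∈ C ∧ (orderOf x).Coprime p := by
    intro x
    rw [hOG]
    constructor
    · rintro ⟨y, hy, rfl⟩
      refine ⟨y.2, ?_⟩
      rw [Subgroup.coe_subtype, Subgroup.orderOf_coe]
      exact (NormalPComplement.mem_iff_coprime_orderOf' O hO1 hO2 y).mp hy
    · rintro ⟨hx, hx1⟩
      refine ⟨⟨x, hx⟩, ?_, rfl⟩
      refine (NormalPComplement.mem_iff_coprime_orderOf' O hO1 hO2 _).mpr ?_
      rw [← Subgroup.orderOf_coe]; exact hx1
  have hNC : N ≤ normalizer (C : Set G) := normalizer_le_normalizer_centralizer K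
  have hNOG : N ≤ normalizer (OG : Set G) := by
    intro g hg
    apply mem_normalizer_of_conj_mem
    intro a ha
    rw [hOGmem] at ha ⊢
    refine ⟨((Subgroup.mem_normalizer_iff.mp (hNC hg)) a).mp ha.1, ?_⟩
    have : orderOf (g * a * g⁻¹) = orderOf a := by
      have := orderOf_injective (MulAut.conj g).toMonoidHom (MulAut.conj g).injective a
      simpa using this
    rw [this]; exact ha.2
  have hOGcop : (Nat.card OG).Coprime p := by
    rw [hOG, PLocal.ThompsonJA.card_map_of_injective _ C.subtype_injective]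
    exact hO1
  have hCN' : C ≤ N := hCN
  let ON : Subgroup N := OG.subgroupOf N
  have hONn : ON.Normal := (normal_subgroupOf_iff_le_normalizer (hOGC.trans hCN')).mpr hNOG
  have hONcop : (Nat.card ON).Coprime p := by
    rw [Nat.card_congr (Subgroup.subgroupOfEquivOfLe (hOGC.trans hCN')).toEquiv]
    exact hOGcop
  refine NormalPComplement.of_quotient ON hONcop ?_
  -- the subgroup `N ∩ N_G(C₀)` covers the quotient
  let H : Subgroup G := N ⊓ normalizer (C₀ : Set G)
  have hH : HasNormalPComplement p H := by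
    refine Transfer.PNilpotentBasic.hnc_of_le ?_ h
    intro g hg
    refine hnorm g hg.1 ?_
    have hg1 : g ∈ normalizer (C₀ : Set G) := hg.2
    have hg2 : g ∈ normalizer (K : Set G) := hg.1
    rw [Subgroup.mem_normalizer_iff_map_conj_eq] at hg1 hg2 ⊢
    have hg3 : Z.map (MulAut.conj g : G →* G) = Z := by
      have := Subgroup.map_inf C₀ K (MulAut.conj g : G →* G) (MulAut.conj g).injective
      rw [hg1, hg2] at this
      rw [hZ]; exact this
    rw [hD, map_relD (MulAut.conj g : G →* G) (MulAut.conj g).injective hZC₀, hg1, hg3]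
  let f : H →* N ⧸ ON := (QuotientGroup.mk' ON).comp (Subgroup.inclusion inf_le_left)
  refine Transfer.PNilpotentBasic.hnc_of_surjective f ?_ hH
  intro x
  obtain ⟨⟨n, hn⟩, rfl⟩ := QuotientGroup.mk'_surjective ON x
  -- Frattini
  obtain ⟨c, hc, hcn⟩ := hSC.frattini (L := N) hNC hn
  -- `c = o * s` with `o ∈ OG`, `s ∈ C₀`
  have hpow : ∀ x ∈ C, ∃ k : ℕ, x ^ p ^ k ∈ OG := by
    intro x hx
    obtain ⟨k, hk⟩ := (NormalPComplement.isPGroup_quotient_iff O).mp hO2 ⟨x, hx⟩
    refine ⟨k, ?_⟩
    rw [hOG]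
    exact ⟨_, hk, rfl⟩
  obtain ⟨o, ho, s, hs, hos⟩ := hSC.exists_mul hOGC (hCN'.trans hNOG) hpow (inv_mem hc)
  -- `n = c⁻¹ * (c * n) = o * (s * (c * n))`
  have hsn : s * (c * n) ∈ normalizer (C₀ : Set G) := mul_mem (le_normalizer hs) hcn
  have hsN : s * (c * n) ∈ N :=
    mul_mem (hCN' (hC₀C hs)) (mul_mem (hCN' hc) hn)
  refine ⟨⟨s * (c * n), hsN, hsn⟩, ?_⟩
  change (QuotientGroup.mk' ON) _ = (QuotientGroup.mk' ON) _
  rw [QuotientGroup.mk'_apply, QuotientGroup.mk'_apply, QuotientGroup.eq, mem_subgroupOf]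
  have e : n = o * (s * (c * n)) := by
    rw [← mul_assoc, ← hos]; group
  have e1 : (s * (c * n))⁻¹ * n = (s * (c * n))⁻¹ * o * (s * (c * n)) := by
    conv_lhs => rw [e]
    have : c * (o * (s * (c * n))) = c * n := by rw [← e]
    rw [this]; group
  change (s * (c * n))⁻¹ * n ∈ OG
  rw [e1]
  have h7 := ((Subgroup.mem_normalizer_iff.mp (hNOG (inv_mem hsN))) o).mp ho
  rwa [inv_inv] at h7

end Cfsg.Agent.H278.CharComplement
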