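import Mathlib
import Cfsg.Prelude.Def_PLocal
import Cfsg.Agent.H278.AbelianOffender
import Cfsg.Agent.H278.Automizer
import Cfsg.Agent.Lib.CoprimeCommutator
import Cfsg.Agent.Lib.Cores
import Cfsg.Agent.PLocal.ThompsonJA
import Cfsg.Agent.PLocal.ComplementReduction
import Cfsg.Agent.Transfer.PNilpotentBasic

/-!
# The normal `p`-complement theorem for `J(S)`, `p ≥ 5`
-/

set_option autoImplicit false

namespace Cfsg.Agent.H278.JComplement

open Subgroup Cfsg
open scoped commutatorElement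
open Cfsg.Agent.PLocal.ThompsonJA

universe u

variable {G : Type u} [Group G]

/-- `[K, A] ≤ Q` for `K / Q` abelian and `A` abelian of largest order in a `p`-group `P ≥ Q`. -/
theorem commutator_le_of_max [Finite G] {p : ℕ} [hpf : Fact p.Prime] (hp : 5 ≤ p)
    (Q K₀ P A : Subgroup G) [hQn : Q.Normal] [hKn : K₀.Normal] (hQP : Q ≤ P) (hP : IsPGroup p P)
    (hQK : Q ≤ K₀) (hKc : ⁅K₀, K₀⁆ ≤ Q) (hKi : (Q.relIndex K₀).Coprime p)
    (hC : centralizer (Q : Set G) ≤ Q) (hA : A ∈ maxAbelianIn P) : ⁅K₀, A⁆ ≤ Q := by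
  obtain ⟨hAP, hAc, hAm⟩ := hA
  have hAc' := (isMulCommutative_iff A).mp hAc
  obtain ⟨K, hK⟩ : ∃ K, K = ⁅K₀, A⁆ ⊔ Q := ⟨_, rfl⟩
  have hcle : ⁅K₀, A⁆ ≤ K₀ := Subgroup.commutator_le_left K₀ A
  have hKK₀ : K ≤ K₀ := by rw [hK]; exact sup_le hcle hQK
  have hQK' : Q ≤ K := by rw [hK]; exact le_sup_right
  have hAN : A ≤ normalizer (K : Set G) := by
    rw [hK]
    have h1 := Cfsg.Agent.Lib.CoprimeCommutator.right_le_normalizer_commutator K₀ A
    have h2 : A ≤ normalizer (Q : Set G) := by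
      rw [Subgroup.normalizer_eq_top_iff.mpr hQn]; exact le_top
    intro a ha
    have h3 := Subgroup.mem_normalizer_iff_map_conj_eq.mp (h1 ha)
    have h4 := Subgroup.mem_normalizer_iff_map_conj_eq.mp (h2 ha)
    rw [Subgroup.mem_normalizer_iff_map_conj_eq, Subgroup.map_sup, h3, h4]
  -- `K = [K, A] Q`
  have hKA : K ≤ ⁅K, A⁆ ⊔ Q := by
    let π := QuotientGroup.mk' Q
    have hcop : (Nat.card (A.map π)).Coprime (Nat.card (K₀.map π)) := by
      obtain ⟨n, hn⟩ := IsPGroup.iff_card.mp ((hP.to_le hAP).map π)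
      rw [hn]
      apply Nat.Coprime.pow_left n
      have h1 : Nat.card (K₀.map π) = Q.relIndex K₀ := by
        rw [← Subgroup.relIndex_ker, QuotientGroup.ker_mk']
      rw [h1]; exact hKi.symm
    have hAK : A.map π ≤ normalizer ((K₀.map π : Subgroup (G ⧸ Q)) : Set (G ⧸ Q)) := by
      have h1 : (K₀.map π).Normal := hKn.map _ (QuotientGroup.mk'_surjective Q)
      rw [Subgroup.normalizer_eq_top_iff.mpr h1]; exact le_top
    have h1 := Cfsg.Agent.Lib.CoprimeCommutator.commutator_commutator_eq (A.map π) (K₀.map π)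
      hAK hcop
    have hQb : Q.map π = ⊥ := by
      rw [Subgroup.map_eq_bot_iff, QuotientGroup.ker_mk']
    have h2 : K.map π = ⁅K₀.map π, A.map π⁆ := by
      rw [hK, Subgroup.map_sup, hQb, sup_bot_eq, Subgroup.map_commutator]
    have h3 : ⁅K, A⁆.map π = K.map π := by
      rw [Subgroup.map_commutator, h2, h1]
    have h4 : K ≤ (⁅K, A⁆.map π).comap π := by
      rw [h3]; exact Subgroup.le_comap_map π K
    rw [Subgroup.comap_map_eq, QuotientGroup.ker_mk'] at h4
    exact h4
  -- the ambient group `N(K)`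
  let N : Subgroup G := normalizer (K : Set G)
  have hKN : K ≤ N := le_normalizer
  have hQN : Q ≤ N := hQK'.trans hKN
  have hKsub : (K.subgroupOf N).Normal := by
    exact (normal_subgroupOf_iff_le_normalizer hKN).mpr le_rfl
  have key : K.subgroupOf N ≤ Q.subgroupOf N := by
    have hQsn : (Q.subgroupOf N).Normal := inferInstance
    refine AbelianOffender.offender_step hp (Q.subgroupOf N) (K.subgroupOf N) (A.subgroupOf N)
      ?_ ?_ ?_ ?_ ?_ ?_ ?_ ?_
    · exact (hP.to_le hQP).comap_of_injective _ N.subtype_injective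
    · intro s hs t ht
      have h1 : ⁅(s : G), (t : G)⁆ ∈ Q :=
        hKc (commutator_mem_commutator (hKK₀ hs) (hKK₀ ht))
      exact h1
    · rw [Subgroup.relIndex_subgroupOf hKN]
      have h1 : Q.relIndex K ∣ Q.relIndex K₀ := by
        rw [← Subgroup.relIndex_mul_relIndex Q K K₀ hQK' hKK₀]
        exact dvd_mul_right _ _
      exact hKi.coprime_dvd_left h1
    · rintro x ⟨-, hx⟩
      apply hC
      rw [mem_centralizer_iff]
      intro q hq
      have h1 := (mem_centralizer_iff.mp hx) (⟨q, hQN hq⟩ : N) hq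
      exact congrArg Subtype.val h1
    · exact (hP.to_le hAP).comap_of_injective _ N.subtype_injective
    · intro a ha b hb
      exact Subtype.ext (hAc' a ha b hb)
    · intro D hD hDc
      have h1 : D.map N.subtype ≤ P := by
        have h2 := map_mono (f := N.subtype) hD
        rw [Subgroup.map_sup, subgroupOf_map_subtype, subgroupOf_map_subtype] at h2
        exact h2.trans (sup_le (inf_le_left.trans hQP) (inf_le_left.trans hAP))
      have h3 := hAm (D.map N.subtype) h1 (isMulCommutative_map _ ((isMulCommutative_iff D).mpr hDc))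
      rw [card_map_of_injective _ N.subtype_injective] at h3
      rwa [Nat.card_congr (Subgroup.subgroupOfEquivOfLe hAN).toEquiv]
    · have h1 : (⁅K.subgroupOf N, A.subgroupOf N⁆ ⊔ Q.subgroupOf N).map N.subtype = ⁅K, A⁆ ⊔ Q := by
        rw [Subgroup.map_sup, Subgroup.map_commutator, subgroupOf_map_subtype,
          subgroupOf_map_subtype, subgroupOf_map_subtype, inf_eq_left.mpr hKN,
          inf_eq_left.mpr hAN, inf_eq_left.mpr hQN]
      rw [← Subgroup.map_le_map_iff_of_injective N.subtype_injective, h1, subgroupOf_map_subtype,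
        inf_eq_left.mpr hKN]
      exact hKA
  have h5 : K ≤ Q := by
    intro k hk
    exact key (show (⟨k, hKN hk⟩ : N) ∈ K.subgroupOf N from hk)
  have h6 : ⁅K₀, A⁆ ≤ K := by rw [hK]; exact le_sup_left
  exact h6.trans h5

/-- `J(P) ≤ O_p(G)` in the minimal configuration. -/
theorem thompson_le [Finite G] {p : ℕ} [hpf : Fact p.Prime] (hp : 5 ≤ p) (P : Sylow p G)
    (K₀ : Subgroup G) (hKn : K₀.Normal) (hQK : Cfsg.pCore p G ≤ K₀)
    (hKc : ⁅K₀, K₀⁆ ≤ Cfsg.pCore p G) (hKi : ((Cfsg.pCore p G).relIndex K₀).Coprime p)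
    (htop : K₀ ⊔ (P : Subgroup G) = ⊤)
    (hC : centralizer (Cfsg.pCore p G : Set G) ≤ Cfsg.pCore p G) :
    thompsonSubgroupAOf (P : Subgroup G) ≤ Cfsg.pCore p G := by
  have hQn : (Cfsg.pCore p G).Normal := Cfsg.Agent.Lib.Cores.pCore_normal p
  obtain ⟨Q, hQ⟩ : ∃ Q, Q = Cfsg.pCore p G := ⟨_, rfl⟩
  rw [← hQ] at hQK hKc hKi hC hQn ⊢
  have hQp : IsPGroup p Q := by rw [hQ]; exact Cfsg.Agent.Lib.Cores.pCore_isPGroup p
  have hQP : Q ≤ (P : Subgroup G) := by
    rw [hQ]; exact Cfsg.Agent.Lib.Cores.pCore_le_sylow P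
  rw [thompsonSubgroupAOf_eq_sSup]
  refine sSup_le ?_
  intro A hA
  have h1 := commutator_le_of_max hp Q K₀ (P : Subgroup G) A hQP P.isPGroup' hQK hKc hKi hC hA
  -- the elements of `P` centralizing `K₀ / Q`
  let π := QuotientGroup.mk' Q
  have hKpn : (K₀.map π).Normal := hKn.map _ (QuotientGroup.mk'_surjective Q)
  obtain ⟨C, hCdef⟩ : ∃ C : Subgroup G, C = (centralizer ((K₀.map π : Subgroup (G ⧸ Q)) : Set (G ⧸ Q))).comap π :=
    ⟨_, rfl⟩
  have hCn : C.Normal := by rw [hCdef]; infer_instance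
  have hCmem : ∀ g : G, g ∈ C ↔ ∀ k ∈ K₀, ⁅k, g⁆ ∈ Q := by
    intro g
    rw [hCdef, Subgroup.mem_comap, mem_centralizer_iff]
    constructor
    · intro h k hk
      have h2 := h (π k) ⟨k, hk, rfl⟩
      rw [← QuotientGroup.eq_one_iff]
      change π ⁅k, g⁆ = 1
      rw [map_commutatorElement, commutatorElement_eq_one_iff_mul_comm]
      exact h2
    · rintro h _ ⟨k, hk, rfl⟩
      have h2 := h k hk
      rw [← QuotientGroup.eq_one_iff] at h2
      change π ⁅k, g⁆ = 1 at h2
      rw [map_commutatorElement, commutatorElement_eq_one_iff_mul_comm] at h2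
      exact h2
  obtain ⟨E, hE⟩ : ∃ E : Subgroup G, E = (P : Subgroup G) ⊓ C := ⟨_, rfl⟩
  have hEn : E.Normal := by
    rw [← Subgroup.normalizer_eq_top_iff, eq_top_iff, ← htop]
    refine sup_le ?_ ?_
    · intro k hk
      have hQE : Q ≤ E := by
        rw [hE]
        refine le_inf hQP ?_
        intro q hq
        rw [hCmem]
        intro k hk
        rw [commutatorElement_def]
        exact mul_mem (hQn.conj_mem q hq k) (inv_mem hq)
      have h2 : ∀ k ∈ K₀, ∀ e ∈ E, k * e * k⁻¹ ∈ E := by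
        intro k hk e he
        have h3 : ⁅k, e⁆ ∈ Q := (hCmem e).mp (by rw [hE] at he; exact he.2) k hk
        have h4 := mul_mem (hQE h3) he
        rw [commutatorElement_def, inv_mul_cancel_right] at h4
        exact h4
      rw [Subgroup.mem_normalizer_iff]
      intro e
      refine ⟨h2 k hk e, fun h => ?_⟩
      have h3 := h2 k⁻¹ (inv_mem hk) _ h
      have e1 : k⁻¹ * (k * e * k⁻¹) * k⁻¹⁻¹ = e := by group
      rwa [e1] at h3
    · rw [hE]
      exact (le_inf le_normalizer (by rw [Subgroup.normalizer_eq_top_iff.mpr hCn]; exact le_top)).trans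
        inf_normalizer_le_normalizer_inf
  have hEQ : E ≤ Q := by
    rw [hQ]
    exact Cfsg.Agent.Lib.Cores.le_pCore hEn (by rw [hE]; exact P.isPGroup'.to_le inf_le_left)
  refine le_trans ?_ hEQ
  rw [hE]
  refine le_inf hA.1 ?_
  intro a ha
  rw [hCmem]
  intro k hk
  exact h1 (commutator_mem_commutator hk ha)

/-- `J(P)` is compatible with homomorphisms injective on `P`. -/
theorem map_thompsonSubgroupAOf_of_injOn {G H : Type*} [Group G] [Group H] (f : G →* H)
    (P : Subgroup G) (hf : Set.InjOn f P) :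
    (thompsonSubgroupAOf P).map f = thompsonSubgroupAOf (P.map f) := by
  have h1 : Function.Injective (f.comp P.subtype) := by
    intro x y hxy
    exact Subtype.ext (hf x.2 y.2 hxy)
  have h2 : (⊤ : Subgroup P).map P.subtype = P := by
    rw [← MonoidHom.range_eq_map, Subgroup.range_subtype]
  have h3 := PLocal.ThompsonJA.map_thompsonSubgroupAOf P.subtype P.subtype_injective ⊤
  have h4 := PLocal.ThompsonJA.map_thompsonSubgroupAOf (f.comp P.subtype) h1 ⊤
  rw [← Subgroup.map_map, h3, ← Subgroup.map_map, h2] at h4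
  exact h4

/-- The normal `p`-complement theorem for `J(P)`, `p ≥ 5`. -/
theorem hasNormalPComplement (G : Type u) [Group G] [Finite G] {p : ℕ} [Fact p.Prime] (hp : 5 ≤ p)
    (P : Sylow p G)
    (hN : Cfsg.HasNormalPComplement p
      (Subgroup.normalizer (thompsonSubgroupAOf (P : Subgroup G) : Set G))) :
    Cfsg.HasNormalPComplement p G := by
  refine PLocal.ComplementReduction.hasNormalPComplement_of_functor (p := p)
    (fun G _ P => thompsonSubgroupAOf P) ?_ ?_ ?_ ?_ G P hN
  · intro G G' _ _ _ _ f P hf _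
    exact map_thompsonSubgroupAOf_of_injOn f P hf
  · intro G _ _ P _
    exact PLocal.ThompsonJA.thompsonSubgroupAOf_le P
  · intro G _ _ P hP hP1 h
    apply PLocal.ThompsonJA.centerThompsonAOf_ne_bot P hP hP1
    rw [eq_bot_iff, ← h]
    exact PLocal.ThompsonJA.centerThompsonAOf_le_thompsonSubgroupAOf P
  · intro G _ _ P A hA hlt hab hcop htop hc _ hN
    have h1 := thompson_le hp P A hA hlt.le hab hcop htop hc
    have h2 := PLocal.ThompsonJA.thompsonSubgroupAOf_eq_of_le h1
      (Cfsg.Agent.Lib.Cores.pCore_le_sylow P)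
    have h3 : (Cfsg.pCore p G).Normal := Cfsg.Agent.Lib.Cores.pCore_normal p
    have h4 := PLocal.ThompsonJA.normalizer_le_normalizer_thompsonSubgroupAOf (Cfsg.pCore p G)
    rw [Subgroup.normalizer_eq_top_iff.mpr h3, top_le_iff, h2] at h4
    rw [h4] at hN
    exact (Transfer.PNilpotentBasic.hnc_top).1 hN

end Cfsg.Agent.H278.JComplement
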