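import Mathlib
import Cfsg.Agent.Lib.CoprimeStab
import Cfsg.Agent.Lib.CoprimeAbelian
import Cfsg.Agent.PLocal.ThompsonReplacement

/-!
# A section `B / M` of a normal `p`-subgroup

`exists_BM`: `Q ≤ K` normal in `G`, `Q` a `p`-group, `K / Q` a `p'`-group, `C_K(Q) ≤ Q`, `K ≠ Q`.  There are normal
subgroups `M < B ≤ Q` of `G` with `B / M` elementary abelian, `[B, Q] ≤ M`, `M ≤ Z(B)`, `K = L Q` with `[L, M] = 1`,
and `C_{B/M}(K) = 1`.

`iso_comm`: for `K / Q` abelian and `y ∈ B` the elements `(k y k⁻¹)(k⁻¹ y k)`, `k ∈ K`, commute with each other.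
-/

set_option autoImplicit false

namespace Cfsg.Agent.H278.MinSection

open Subgroup
open scoped commutatorElement

variable {G : Type*} [Group G]

theorem normal_closure_of_conj {S : Set G} (hS : ∀ s ∈ S, ∀ g : G, g * s * g⁻¹ ∈ S) :
    (closure S).Normal := by
  constructor
  intro n hn g
  have h1 : closure S ≤ (closure S).map (MulAut.conj g⁻¹).toMonoidHom := by
    rw [closure_le]
    intro s hs
    refine ⟨g * s * g⁻¹, subset_closure (hS s hs g), ?_⟩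
    simp only [MulEquiv.toMonoidHom_eq_coe, MonoidHom.coe_coe, MulAut.conj_apply]
    group
  obtain ⟨w, hw, hwv⟩ := h1 hn
  have : g * n * g⁻¹ = w := by
    rw [← hwv]
    simp only [MulEquiv.toMonoidHom_eq_coe, MonoidHom.coe_coe, MulAut.conj_apply]
    group
  rw [this]; exact hw

theorem mem_of_pow_mem_pow_mem {H : Subgroup G} {x : G} {m n : ℕ} (hmn : m.Coprime n)
    (hm : x ^ m ∈ H) (hn : x ^ n ∈ H) : x ∈ H := by
  have h1 : x = (x ^ m) ^ (Nat.gcdA m n) * (x ^ n) ^ (Nat.gcdB m n) := by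
    have h2 := Nat.gcd_eq_gcd_ab m n
    rw [Nat.Coprime.gcd_eq_one hmn] at h2
    rw [← zpow_natCast x m, ← zpow_natCast x n, ← zpow_mul, ← zpow_mul, ← zpow_add, ← h2]
    simp
  rw [h1]
  exact mul_mem (zpow_mem hm _) (zpow_mem hn _)

/-- `K = L Q` for `L` generated by the `p'`-elements of `K`. -/
theorem le_closure_sup [Finite G] {p : ℕ} [hp : Fact p.Prime] {Q K : Subgroup G} [Q.Normal]
    (hKi : (Q.relIndex K).Coprime p) :
    K ≤ closure {x : G | x ∈ K ∧ (orderOf x).Coprime p} ⊔ Q := by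
  intro k hk
  have h1 : k ^ (Q.relIndex K) ∈ Q := by
    have h2 := Subgroup.pow_index_mem (H := Q.subgroupOf K) (⟨k, hk⟩ : K)
    exact h2
  obtain ⟨n, m, hm, hnm⟩ := Nat.exists_eq_pow_mul_and_not_dvd (n := orderOf k)
    (orderOf_pos k).ne' p hp.out.ne_one
  have h3 : k ^ (p ^ n) ∈ closure {x : G | x ∈ K ∧ (orderOf x).Coprime p} := by
    apply Subgroup.subset_closure
    refine ⟨pow_mem hk _, ?_⟩
    rw [orderOf_pow, hnm, Nat.gcd_eq_right (Dvd.intro _ rfl),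
      Nat.mul_div_cancel_left _ (pow_pos hp.out.pos n)]
    exact ((Nat.Prime.coprime_iff_not_dvd hp.out).mpr hm).symm
  refine mem_of_pow_mem_pow_mem (m := Q.relIndex K) (n := p ^ n) (hKi.pow_right n) ?_ ?_
  · exact (le_sup_right : Q ≤ _) h1
  · exact (le_sup_left : closure {x : G | x ∈ K ∧ (orderOf x).Coprime p} ≤ _) h3

theorem exists_BM [Finite G] {p : ℕ} [hp : Fact p.Prime] (Q K : Subgroup G) [hQn : Q.Normal]
    [hKn : K.Normal] (hQ : IsPGroup p Q) (hKi : (Q.relIndex K).Coprime p)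
    (hC : K ⊓ centralizer (Q : Set G) ≤ Q) (hKQ : ¬ K ≤ Q) :
    ∃ B M : Subgroup G, B.Normal ∧ M.Normal ∧ B ≤ Q ∧ M ≤ B ∧ ¬ B ≤ M ∧
      (∀ x ∈ B, ∀ y ∈ B, ⁅x, y⁆ ∈ M) ∧ (∀ b ∈ B, ∀ m ∈ M, b * m = m * b) ∧
      (∀ x ∈ B, x ^ p ∈ M) ∧ (∀ q ∈ Q, ∀ b ∈ B, ⁅q, b⁆ ∈ M) ∧
      (∃ L : Subgroup G, K ≤ L ⊔ Q ∧ (∀ l ∈ L, ∀ m ∈ M, l * m = m * l)) ∧
      (∀ b ∈ B, (∀ k ∈ K, k * b * k⁻¹ * b⁻¹ ∈ M) → b ∈ M) := by
  classical
  obtain ⟨L, hL⟩ : ∃ L, L = closure {x : G | x ∈ K ∧ (orderOf x).Coprime p} := ⟨_, rfl⟩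
  have hKLQ : K ≤ L ⊔ Q := by rw [hL]; exact le_closure_sup hKi
  have hLK : L ≤ K := by rw [hL, closure_le]; exact fun x hx => hx.1
  have hLn : L.Normal := by
    rw [hL]
    apply normal_closure_of_conj
    rintro s ⟨hs1, hs2⟩ g
    refine ⟨hKn.conj_mem s hs1 g, ?_⟩
    have : g * s * g⁻¹ = MulAut.conj g s := rfl
    rw [this, MulEquiv.orderOf_eq]
    exact hs2
  -- an element of a `p`-group normalized... : coprime action
  have hcop : ∀ x ∈ K, (orderOf x).Coprime p → ∀ b ∈ Q, Commute ⁅b, x⁆ x → Commute b x := by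
    intro x hx hxp b hb hc
    refine Lib.CoprimeStab.commute_of_commutator_commute (H := Q) ?_ ?_ hc
    · obtain ⟨n, hn⟩ := IsPGroup.iff_card.mp hQ
      rw [hn]; exact hxp.pow_right n
    · rw [commutatorElement_def]
      have := hQn.conj_mem b⁻¹ (inv_mem hb) x
      have e : b * x * b⁻¹ * x⁻¹ = b * (x * b⁻¹ * x⁻¹) := by group
      rw [e]; exact mul_mem hb this
  -- the minimal choice of `B`
  let 𝒴 : Set (Subgroup G) := {B | B.Normal ∧ B ≤ Q ∧ ¬ B ≤ centralizer (L : Set G)}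
  have hQ𝒴 : Q ∈ 𝒴 := by
    refine ⟨hQn, le_rfl, fun h => hKQ ?_⟩
    have h1 : L ≤ Q := by
      intro l hl
      apply hC
      refine ⟨hLK hl, mem_centralizer_iff.mpr fun q hq => ?_⟩
      exact ((mem_centralizer_iff.mp (h hq)) l hl).symm
    exact hKLQ.trans (sup_le h1 le_rfl)
  obtain ⟨B, ⟨hBn, hBQ, hBL⟩, hBmin⟩ := Set.Finite.exists_minimal (Set.toFinite 𝒴) ⟨Q, hQ𝒴⟩
  have hBmin' : ∀ N : Subgroup G, N.Normal → N ≤ B → N ≠ B → N ≤ centralizer (L : Set G) := by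
    intro N hN hNB hne
    by_contra h
    exact hne (le_antisymm hNB (hBmin ⟨hN, hNB.trans hBQ, h⟩ hNB))
  obtain ⟨M, hM⟩ : ∃ M, M = B ⊓ centralizer (L : Set G) := ⟨_, rfl⟩
  have hMn : M.Normal := by rw [hM]; infer_instance
  have hMB : M ≤ B := by rw [hM]; exact inf_le_left
  have hML : M ≤ centralizer (L : Set G) := by rw [hM]; exact inf_le_right
  have hBM : ¬ B ≤ M := fun h => hBL (h.trans hML)
  have hleM : ∀ N : Subgroup G, N.Normal → N ≤ B → N ≠ B → N ≤ M := by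
    intro N hN hNB hne
    rw [hM]; exact le_inf hNB (hBmin' N hN hNB hne)
  have hLM : ∀ l ∈ L, ∀ m ∈ M, l * m = m * l := fun l hl m hm =>
    (mem_centralizer_iff.mp (hML hm)) l hl
  -- `[B, Q] ≤ M`
  have hB1 : B ≠ ⊥ := by
    rintro rfl
    exact hBM bot_le
  have hQnil : Group.IsNilpotent Q := hQ.isNilpotent
  have h1 : ⁅B, Q⁆ ≤ M := by
    apply hleM _ inferInstance (Subgroup.commutator_le_left B Q)
    intro h
    exact hB1 (Cfsg.Agent.PLocal.ThompsonReplacement.eq_bot_of_le_commutator hQnil hBQ h.ge)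
  -- `[B, L] = B`
  have h2 : ⁅B, L⁆ = B := by
    by_contra hne
    have h3 := hleM _ inferInstance (Subgroup.commutator_le_left B L) hne
    apply hBL
    intro b hb
    have h4 : L ≤ centralizer ({b} : Set G) := by
      rw [hL, closure_le]
      rintro x ⟨hxK, hxp⟩
      have hxL : x ∈ L := by rw [hL]; exact subset_closure ⟨hxK, hxp⟩
      rw [SetLike.mem_coe, mem_centralizer_iff]
      intro b' hb'
      rw [Set.mem_singleton_iff] at hb'
      rw [hb']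
      refine hcop x hxK hxp b (hBQ hb) ?_
      have h5 : ⁅b, x⁆ ∈ M := h3 (commutator_mem_commutator hb hxL)
      exact (hLM x hxL _ h5).symm
    rw [mem_centralizer_iff]
    intro l hl
    exact ((mem_centralizer_iff.mp (h4 hl)) b rfl).symm
  -- `[B, M] = 1`
  have h3 : ⁅B, M⁆ = ⊥ := by
    rw [← h2]
    apply Subgroup.commutator_commutator_eq_bot_of_rotate
    · have : ⁅L, M⁆ = ⊥ := by
        rw [Subgroup.commutator_eq_bot_iff_le_centralizer]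
        intro l hl
        rw [mem_centralizer_iff]
        intro m hm
        exact (hLM l hl m hm).symm
      rw [this, Subgroup.commutator_bot_left]
    · have h4 : ⁅⁅M, B⁆, L⁆ ≤ ⁅M, L⁆ := commutator_mono (Subgroup.commutator_le_left M B) le_rfl
      have h5 : ⁅M, L⁆ = ⊥ := by
        rw [Subgroup.commutator_eq_bot_iff_le_centralizer]; exact hML
      rw [h5] at h4
      exact le_bot_iff.mp h4
  have h4 : ∀ b ∈ B, ∀ m ∈ M, b * m = m * b := by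
    intro b hb m hm
    have := (Subgroup.commutator_eq_bot_iff_le_centralizer.mp h3) hb
    exact ((mem_centralizer_iff.mp this) m hm).symm
  refine ⟨B, M, hBn, hMn, hBQ, hMB, hBM, ?_, h4, ?_, ?_, ⟨L, hKLQ, hLM⟩, ?_⟩
  · intro x hx y hy
    exact h1 (commutator_mem_commutator hx (hBQ hy))
  · -- `x ^ p ∈ M`
    obtain ⟨N, hN⟩ : ∃ N, N = M ⊔ closure {x : G | ∃ b ∈ B, x = b ^ p} := ⟨_, rfl⟩
    have hcn : (closure {x : G | ∃ b ∈ B, x = b ^ p}).Normal := by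
      apply normal_closure_of_conj
      rintro _ ⟨b, hb, rfl⟩ g
      exact ⟨g * b * g⁻¹, hBn.conj_mem b hb g, by rw [conj_pow]⟩
    have hNn : N.Normal := by rw [hN]; infer_instance
    have hNB : N ≤ B := by
      rw [hN]
      refine sup_le hMB ((closure_le _).mpr ?_)
      rintro _ ⟨b, hb, rfl⟩
      exact pow_mem hb p
    have hne : N ≠ B := by
      intro h
      -- the quotient `B / M`
      have hM' : (M.subgroupOf B).Normal := inferInstance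
      have hnt : Nontrivial (B ⧸ M.subgroupOf B) := by
        by_contra hnt
        rw [not_nontrivial_iff_subsingleton] at hnt
        apply hBM
        intro b hb
        have h5 : (QuotientGroup.mk (⟨b, hb⟩ : B) : B ⧸ M.subgroupOf B) = 1 := Subsingleton.elim _ _
        have h6 := (QuotientGroup.eq_one_iff (⟨b, hb⟩ : B)).mp h5
        exact h6
      have hpg : IsPGroup p (B ⧸ M.subgroupOf B) := (hQ.to_le hBQ).to_quotient _
      obtain ⟨R, hRn, hRi, hRp, -⟩ := Lib.CoprimeStab.exists_normal_index_prime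
        (B ⧸ M.subgroupOf B) hpg
      have h6 : N ≤ (R.comap (QuotientGroup.mk' (M.subgroupOf B))).map B.subtype := by
        rw [hN]
        refine sup_le ?_ ((closure_le _).mpr ?_)
        · intro m hm
          refine ⟨⟨m, hMB hm⟩, ?_, rfl⟩
          have h5 : (QuotientGroup.mk' (M.subgroupOf B)) (⟨m, hMB hm⟩ : B) = 1 :=
            (QuotientGroup.eq_one_iff _).mpr hm
          change (QuotientGroup.mk' (M.subgroupOf B)) (⟨m, hMB hm⟩ : B) ∈ R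
          rw [h5]; exact one_mem R
        · rintro _ ⟨b, hb, rfl⟩
          refine ⟨⟨b, hb⟩ ^ p, ?_, rfl⟩
          change (QuotientGroup.mk' (M.subgroupOf B)) (⟨b, hb⟩ ^ p) ∈ R
          rw [map_pow]
          exact hRp _
      have h7 : R = ⊤ := by
        rw [eq_top_iff]
        intro x _
        obtain ⟨b, rfl⟩ := QuotientGroup.mk'_surjective (M.subgroupOf B) x
        have h8 : (b : G) ∈ N := by rw [h]; exact b.2
        obtain ⟨c, hc, hcb⟩ := h6 h8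
        have : c = b := Subtype.ext hcb
        rw [← this]
        exact hc
      rw [h7, Subgroup.index_top] at hRi
      exact hp.out.one_lt.ne hRi
    intro x hx
    apply hleM N hNn hNB hne
    rw [hN]
    exact (le_sup_right : closure {x : G | ∃ b ∈ B, x = b ^ p} ≤ _) (subset_closure ⟨x, hx, rfl⟩)
  · intro q hq b hb
    rw [Subgroup.commutator_comm] at h1
    exact h1 (commutator_mem_commutator hq hb)
  · intro b hb hk
    rw [hM]
    refine ⟨hb, ?_⟩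
    have h5 : L ≤ centralizer ({b} : Set G) := by
      rw [hL, closure_le]
      rintro x ⟨hxK, hxp⟩
      have hxL : x ∈ L := by rw [hL]; exact subset_closure ⟨hxK, hxp⟩
      rw [SetLike.mem_coe, mem_centralizer_iff]
      intro b' hb'
      rw [Set.mem_singleton_iff] at hb'
      rw [hb']
      refine hcop x hxK hxp b (hBQ hb) ?_
      have h6 : ⁅b, x⁆ ∈ M := by
        have h7 := inv_mem (hk x hxK)
        have e : (x * b * x⁻¹ * b⁻¹)⁻¹ = ⁅b, x⁆ := by rw [commutatorElement_def]; group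
        rwa [e] at h7
      exact (hLM x hxL _ h6).symm
    exact mem_centralizer_iff.mpr fun l hl => ((mem_centralizer_iff.mp (h5 hl)) b rfl).symm

/-- The elements `(k y k⁻¹)(k⁻¹ y k)` commute with each other. -/
theorem iso_comm {B M L Q K : Subgroup G} [hBn : B.Normal] [hMn : M.Normal] [hQn : Q.Normal]
    (hMB : M ≤ B) (hBB : ∀ x ∈ B, ∀ y ∈ B, ⁅x, y⁆ ∈ M) (hBM : ∀ b ∈ B, ∀ m ∈ M, b * m = m * b)
    (hQB : ∀ q ∈ Q, ∀ b ∈ B, ⁅q, b⁆ ∈ M) (hKL : K ≤ L ⊔ Q) (hLM : ∀ l ∈ L, ∀ m ∈ M, l * m = m * l)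
    (hKc : ∀ s ∈ K, ∀ t ∈ K, ⁅s, t⁆ ∈ Q) {y : G} (hy : y ∈ B) {k k' : G} (hk : k ∈ K)
    (hk' : k' ∈ K) :
    Commute ((k * y * k⁻¹) * (k⁻¹ * y * k)) ((k' * y * k'⁻¹) * (k'⁻¹ * y * k')) := by
  have hcj : ∀ g : G, ∀ b ∈ B, g * b * g⁻¹ ∈ B := fun g b hb => hBn.conj_mem b hb g
  -- bilinearity
  have c1 : ∀ x ∈ B, ∀ x' ∈ B, ∀ z ∈ B, ⁅x * x', z⁆ = ⁅x, z⁆ * ⁅x', z⁆ := by
    intro x hx x' hx' z hz
    have h1 : ⁅x * x', z⁆ = x * ⁅x', z⁆ * x⁻¹ * ⁅x, z⁆ := by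
      simp only [commutatorElement_def]; group
    rw [h1, hBM x hx _ (hBB x' hx' z hz), mul_inv_cancel_right]
    exact (hBM _ (hMB (hBB x' hx' z hz)) _ (hBB x hx z hz))
  have c1' : ∀ x ∈ B, ∀ z ∈ B, ∀ z' ∈ B, ⁅x, z * z'⁆ = ⁅x, z⁆ * ⁅x, z'⁆ := by
    intro x hx z hz z' hz'
    have h1 : ⁅x, z * z'⁆ = ⁅x, z⁆ * (z * ⁅x, z'⁆ * z⁻¹) := by
      simp only [commutatorElement_def]; group
    rw [h1, hBM z hz _ (hBB x hx z' hz'), mul_inv_cancel_right]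
  have cM : ∀ m ∈ M, ∀ z ∈ B, ⁅m, z⁆ = 1 := by
    intro m hm z hz
    rw [commutatorElement_eq_one_iff_mul_comm]
    exact (hBM z hz m hm).symm
  have cM' : ∀ m ∈ M, ∀ z ∈ B, ⁅z, m⁆ = 1 := by
    intro m hm z hz
    rw [commutatorElement_eq_one_iff_mul_comm]
    exact hBM z hz m hm
  have hqb : ∀ q ∈ Q, ∀ b ∈ B, q * b * q⁻¹ = ⁅q, b⁆ * b := by
    intro q _ b _
    rw [commutatorElement_def]; group
  have hconj : ∀ g x z : G, ⁅g * x * g⁻¹, g * z * g⁻¹⁆ = g * ⁅x, z⁆ * g⁻¹ := by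
    intro g x z
    simp only [commutatorElement_def]; group
  -- `Q` centralizes the commutators
  have hQc : ∀ q ∈ Q, ∀ x ∈ B, ∀ z ∈ B, q * ⁅x, z⁆ * q⁻¹ = ⁅x, z⁆ := by
    intro q hq x hx z hz
    rw [← hconj, hqb q hq x hx, hqb q hq z hz, c1 _ (hMB (hQB q hq x hx)) _ hx _
      (mul_mem (hMB (hQB q hq z hz)) hz), cM _ (hQB q hq x hx) _
      (mul_mem (hMB (hQB q hq z hz)) hz), one_mul, c1' _ hx _ (hMB (hQB q hq z hz)) _ hz,
      cM' _ (hQB q hq z hz) _ hx, one_mul]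
  have hKc' : ∀ s ∈ K, ∀ x ∈ B, ∀ z ∈ B, ⁅s * x * s⁻¹, s * z * s⁻¹⁆ = ⁅x, z⁆ := by
    intro s hs x hx z hz
    rw [hconj]
    obtain ⟨l, hl, q, hq, rfl⟩ := Subgroup.mem_sup_of_normal_right.mp (hKL hs)
    have h1 : l * q * ⁅x, z⁆ * (l * q)⁻¹ = l * (q * ⁅x, z⁆ * q⁻¹) * l⁻¹ := by group
    rw [h1, hQc q hq x hx z hz, hLM l hl _ (hBB x hx z hz), mul_inv_cancel_right]
  -- the function `φ`
  let φ : G → G := fun m => ⁅y, m * y * m⁻¹⁆
  have hφ : ∀ m, φ m = ⁅y, m * y * m⁻¹⁆ := fun _ => rfl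
  have hφM : ∀ m, φ m ∈ M := fun m => hBB y hy _ (hcj m y hy)
  have hst : ∀ s ∈ K, ∀ t ∈ K, ⁅s * y * s⁻¹, t * y * t⁻¹⁆ = φ (s⁻¹ * t) := by
    intro s hs t ht
    have h1 := hKc' s⁻¹ (inv_mem hs) (s * y * s⁻¹) (hcj s y hy) (t * y * t⁻¹) (hcj t y hy)
    rw [← h1, hφ]
    congr 1
    · group
    · group
  have hφQ : ∀ m m' : G, m⁻¹ * m' ∈ Q → φ m' = φ m := by
    intro m m' hmm
    have h1 : m' * y * m'⁻¹ = (m * ⁅m⁻¹ * m', y⁆ * m⁻¹) * (m * y * m⁻¹) := by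
      rw [commutatorElement_def]; group
    have h2 : m * ⁅m⁻¹ * m', y⁆ * m⁻¹ ∈ M := hMn.conj_mem _ (hQB _ hmm y hy) m
    rw [hφ, hφ, h1, c1' y hy _ (hMB h2) _ (hcj m y hy), cM' _ h2 _ hy, one_mul]
  have hφi : ∀ m ∈ K, φ m⁻¹ = (φ m)⁻¹ := by
    intro m hm
    have h1 := hKc' m hm y hy (m⁻¹ * y * m⁻¹⁻¹) (hcj _ y hy)
    rw [hφ m⁻¹, ← h1]
    have e : m * (m⁻¹ * y * m⁻¹⁻¹) * m⁻¹ = y := by group
    rw [e, hφ m, commutatorElement_inv]
  -- the computation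
  have hk1 : k⁻¹ ∈ K := inv_mem hk
  have hk1' : k'⁻¹ ∈ K := inv_mem hk'
  have e1 : k⁻¹ * y * k = k⁻¹ * y * (k⁻¹)⁻¹ := by rw [inv_inv]
  have e2 : k'⁻¹ * y * k' = k'⁻¹ * y * (k'⁻¹)⁻¹ := by rw [inv_inv]
  rw [← commutatorElement_eq_one_iff_commute, e1, e2,
    c1 _ (hcj k y hy) _ (hcj k⁻¹ y hy) _ (mul_mem (hcj k' y hy) (hcj k'⁻¹ y hy)),
    c1' _ (hcj k y hy) _ (hcj k' y hy) _ (hcj k'⁻¹ y hy),
    c1' _ (hcj k⁻¹ y hy) _ (hcj k' y hy) _ (hcj k'⁻¹ y hy),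
    hst k hk k' hk', hst k hk k'⁻¹ hk1', hst k⁻¹ hk1 k' hk', hst k⁻¹ hk1 k'⁻¹ hk1', inv_inv]
  have f1 : φ (k * k') = (φ (k⁻¹ * k'⁻¹))⁻¹ := by
    rw [← hφi _ (mul_mem hk1 hk1')]
    apply hφQ
    have e : ((k⁻¹ * k'⁻¹)⁻¹)⁻¹ * (k * k') = ⁅k⁻¹, k'⁻¹⁆ := by
      rw [commutatorElement_def]; group
    rw [e]
    exact hKc _ hk1 _ hk1'
  have f2 : φ (k * k'⁻¹) = (φ (k⁻¹ * k'))⁻¹ := by
    rw [← hφi _ (mul_mem hk1 hk')]
    apply hφQ
    have e : ((k⁻¹ * k')⁻¹)⁻¹ * (k * k'⁻¹) = ⁅k⁻¹, k'⁆ := by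
      rw [commutatorElement_def]; group
    rw [e]
    exact hKc _ hk1 _ hk'
  rw [f1, f2]
  group

end Cfsg.Agent.H278.MinSection
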