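import Mathlib

/-!
# Orbits of a `p`-group in a module over `ZMod p`

`linearIndependent_of_sum_ne_zero`: an equivariant family indexed by a transitive set of a `p`-group is linearly
independent if its sum is nonzero.  `exists_good`: the vector `w = k v + k⁻¹ v` used in the proof of the normal
`p`-complement theorem for `J(S)`.
-/

set_option autoImplicit false

namespace Cfsg.Agent.H278.OrbitIndep

section indep

variable {p : ℕ} [Fact p.Prime] {A T W : Type*} [Group A] [MulAction A T]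
  [AddCommGroup W] [Module (ZMod p) W] [DistribMulAction A W]

theorem smul_zmod (a : A) (c : ZMod p) (w : W) : a • (c • w) = c • (a • w) :=
  ZMod.map_smul (DistribSMul.toAddMonoidHom W a) c w

theorem linearIndependent_of_sum_ne_zero [Finite A] [Fintype T] [MulAction.IsPretransitive A T]
    (hA : IsPGroup p A) (w : T → W)
    (hw : ∀ (a : A) (t : T), a • w t = w (a • t)) (hsum : ∑ t, w t ≠ 0) :
    LinearIndependent (ZMod p) w := by
  classical
  rw [Fintype.linearIndependent_iff]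
  by_contra hcon
  push Not at hcon
  obtain ⟨g, hg, t0, ht0⟩ := hcon
  let Λ : Submodule (ZMod p) (T → ZMod p) := LinearMap.ker (Fintype.linearCombination (ZMod p) w)
  have hmem : ∀ l : T → ZMod p, l ∈ Λ ↔ ∑ t, l t • w t = 0 := fun l => by
    rw [LinearMap.mem_ker, Fintype.linearCombination_apply]
  have hact : ∀ (a : A) (l : T → ZMod p), l ∈ Λ → (fun t => l (a⁻¹ • t)) ∈ Λ := by
    intro a l hl
    rw [hmem] at hl ⊢
    have h1 : ∑ t, l (a⁻¹ • t) • w t = a • ∑ t, l t • w t := by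
      rw [Finset.smul_sum, ← Equiv.sum_comp (MulAction.toPerm a) (fun t => l (a⁻¹ • t) • w t)]
      refine Finset.sum_congr rfl fun t _ => ?_
      rw [MulAction.toPerm_apply, inv_smul_smul, ← hw, smul_zmod]
    rw [h1, hl, smul_zero]
  let _ : MulAction A Λ :=
    { smul := fun a l => ⟨fun t => l.1 (a⁻¹ • t), hact a l.1 l.2⟩
      one_smul := fun l => by
        apply Subtype.ext
        funext t
        change l.1 ((1 : A)⁻¹ • t) = l.1 t
        rw [inv_one, one_smul]
      mul_smul := fun a b l => by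
        apply Subtype.ext
        funext t
        change l.1 ((a * b)⁻¹ • t) = l.1 (b⁻¹ • a⁻¹ • t)
        rw [mul_inv_rev, mul_smul] }
  have hsm : ∀ (a : A) (l : Λ) (t : T), (a • l).1 t = l.1 (a⁻¹ • t) := fun _ _ _ => rfl
  have hnt : Nontrivial Λ := ⟨⟨g, (hmem g).mpr hg⟩, 0, fun h => ht0 (by
    have := congrArg (fun l : Λ => l.1 t0) h
    simpa using this)⟩
  have hcard : p ∣ Nat.card Λ := by
    rw [Module.natCard_eq_pow_finrank (K := ZMod p), Nat.card_zmod]
    exact dvd_pow_self p (Module.finrank_pos (R := ZMod p) (M := Λ)).ne'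
  obtain ⟨l, hl, hne⟩ := hA.exists_fixed_point_of_prime_dvd_card_of_fixed_point Λ hcard (a := 0)
    (by intro a; apply Subtype.ext; funext t; rw [hsm]; rfl)
  have hl1 : ∀ (a : A) (t : T), l.1 (a • t) = l.1 t := by
    intro a t
    have h2 := congrArg (fun l : Λ => l.1 t) (hl a⁻¹)
    simpa [hsm] using h2
  obtain ⟨s, hs⟩ : ∃ s, l.1 s ≠ 0 := by
    by_contra h
    push Not at h
    exact hne (Subtype.ext (funext fun t => (h t).symm))
  have hc : ∀ t, l.1 t = l.1 s := by
    intro t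
    obtain ⟨a, rfl⟩ := MulAction.exists_smul_eq A s t
    exact hl1 a s
  have h3 := (hmem l.1).mp l.2
  simp only [hc] at h3
  rw [← Finset.smul_sum] at h3
  rcases smul_eq_zero.mp h3 with h4 | h4
  · exact hs h4
  · exact hsum h4

theorem exists_smul_ne [Finite A] [Fintype T] [MulAction.IsPretransitive A T] (hp2 : p ≠ 2)
    (hA : IsPGroup p A) (w : T → W)
    (hw : ∀ (a : A) (t : T), a • w t = w (a • t)) (hsum : ∑ t, w t ≠ 0)
    (hcard : 4 ≤ Fintype.card T) {t0 t1 : T} (t2 : T) (h01 : t0 ≠ t1) :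
    ∃ a : A, a • (w t0 + w t0 - w t2 - w t1) ≠ w t0 + w t0 - w t2 - w t1 := by
  classical
  by_contra hcon
  push Not at hcon
  have hli := linearIndependent_of_sum_ne_zero hA w hw hsum
  rw [Fintype.linearIndependent_iff] at hli
  obtain ⟨s, hs⟩ : ∃ s : T, s ∉ ({t0, t1, t2} : Finset T) := by
    by_contra h
    push Not at h
    have h1 : (Finset.univ : Finset T) ⊆ {t0, t1, t2} := fun x _ => h x
    have h2 := Finset.card_le_card h1
    have h3 : ({t0, t1, t2} : Finset T).card ≤ 3 := Finset.card_le_three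
    rw [Finset.card_univ] at h2
    omega
  simp only [Finset.mem_insert, Finset.mem_singleton, not_or] at hs
  obtain ⟨hs0, hs1, hs2⟩ := hs
  obtain ⟨a, ha⟩ := MulAction.exists_smul_eq A t0 s
  have h1 := hcon a
  let e : T → T → ZMod p := fun x t => if t = x then 1 else 0
  have he : ∀ x, ∑ t, e x t • w t = w x := by
    intro x
    simp [e, ite_smul]
  have h2 := hli (fun t => e (a • t0) t + e (a • t0) t - e (a • t2) t - e (a • t1) t -
    (e t0 t + e t0 t - e t2 t - e t1 t)) (by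
      simp only [sub_smul, add_smul, Finset.sum_sub_distrib, Finset.sum_add_distrib, he]
      rw [smul_sub, smul_sub, smul_add, hw, hw, hw] at h1
      rw [h1, sub_self]) s
  have h3 : e (a • t0) s = 1 := by simp [e, ha]
  have h4 : e (a • t1) s = 0 := by
    have : s ≠ a • t1 := by
      rw [← ha]
      intro h
      exact h01 (MulAction.injective a h)
    simp [e, this]
  have h5 : e t0 s = 0 := by simp [e, hs0]
  have h6 : e t1 s = 0 := by simp [e, hs1]
  have h7 : e t2 s = 0 := by simp [e, hs2]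
  simp only [h3, h4, h5, h6, h7] at h2
  have h8 : e (a • t2) s = 0 ∨ e (a • t2) s = 1 := by
    simp only [e]; split_ifs <;> simp
  rcases h8 with h8 | h8
  · rw [h8] at h2
    have h9 : (2 : ZMod p) = 0 := by linear_combination h2
    have h10 : ((2 : ℕ) : ZMod p) = 0 := by exact_mod_cast h9
    rw [ZMod.natCast_eq_zero_iff] at h10
    exact hp2 ((Nat.prime_dvd_prime_iff_eq Fact.out Nat.prime_two).mp h10)
  · rw [h8] at h2
    have h9 : (1 : ZMod p) = 0 := by linear_combination h2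
    exact one_ne_zero h9

end indep

section main

variable {p : ℕ} [Fact p.Prime] {Γ W : Type*} [Group Γ] [Finite Γ] [AddCommGroup W]
  [Module (ZMod p) W] [DistribMulAction Γ W]

/-- The conjugates of `k₀` under `A`. -/
def Cls (A : Subgroup Γ) (k₀ : Γ) : Type _ := {k : Γ // ∃ a : A, (a : Γ) * k₀ * (a : Γ)⁻¹ = k}

noncomputable instance (A : Subgroup Γ) (k₀ : Γ) : Fintype (Cls A k₀) :=
  Fintype.ofFinite {k : Γ // ∃ a : A, (a : Γ) * k₀ * (a : Γ)⁻¹ = k}

instance (A : Subgroup Γ) (k₀ : Γ) : MulAction A (Cls A k₀) where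
  smul := fun a k => ⟨(a : Γ) * k.1 * (a : Γ)⁻¹, by
    obtain ⟨b, hb⟩ := k.2
    refine ⟨a * b, ?_⟩
    rw [← hb, Subgroup.coe_mul]
    group⟩
  one_smul := fun k => by
    apply Subtype.ext
    change ((1 : A) : Γ) * k.1 * ((1 : A) : Γ)⁻¹ = k.1
    simp
  mul_smul := fun a b k => by
    apply Subtype.ext
    change ((a * b : A) : Γ) * k.1 * ((a * b : A) : Γ)⁻¹ =
      (a : Γ) * ((b : Γ) * k.1 * (b : Γ)⁻¹) * (a : Γ)⁻¹
    rw [Subgroup.coe_mul]
    group

omit [Finite Γ] in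
theorem Cls.smul_val (A : Subgroup Γ) (k₀ : Γ) (a : A) (k : Cls A k₀) :
    (a • k).1 = (a : Γ) * k.1 * (a : Γ)⁻¹ := rfl

instance (A : Subgroup Γ) (k₀ : Γ) : MulAction.IsPretransitive A (Cls A k₀) where
  exists_smul_eq := by
    intro x y
    obtain ⟨a, ha⟩ := x.2
    obtain ⟨b, hb⟩ := y.2
    refine ⟨b * a⁻¹, Subtype.ext ?_⟩
    rw [Cls.smul_val, ← ha, ← hb]
    simp only [Subgroup.coe_mul, Subgroup.coe_inv]
    group

omit [Fact p.Prime] [Finite Γ] in
theorem sum_smul_eq_zero [Fintype Γ] [DecidableEq Γ] (K : Subgroup Γ) [DecidablePred (· ∈ K)]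
    (hW : ∀ w : W, (∀ k ∈ K, k • w = w) → w = 0) (v : W) :
    ∑ k ∈ Finset.univ.filter (· ∈ K), k • v = 0 := by
  apply hW
  intro k hk
  rw [Finset.smul_sum]
  refine Finset.sum_bij (fun x _ => k * x) ?_ ?_ ?_ ?_
  · intro x hx
    simp only [Finset.mem_filter, Finset.mem_univ, true_and] at hx ⊢
    exact mul_mem hk hx
  · intro x _ y _ h
    exact mul_left_cancel h
  · intro x hx
    simp only [Finset.mem_filter, Finset.mem_univ, true_and] at hx
    refine ⟨k⁻¹ * x, ?_, by simp⟩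
    simp only [Finset.mem_filter, Finset.mem_univ, true_and]
    exact mul_mem (inv_mem hk) hx
  · intro x _
    rw [mul_smul]

theorem exists_orbit (hp2 : p ≠ 2) (K A : Subgroup Γ) (hAK : A ≤ Subgroup.normalizer (K : Set Γ))
    (hW : ∀ w : W, (∀ k ∈ K, k • w = w) → w = 0) (v : W) (hv : v ≠ 0) :
    ∃ k₀ ∈ K, k₀ ≠ 1 ∧ (∑ k : Cls A k₀, ((k.1 : Γ) • v + (k.1 : Γ)⁻¹ • v)) ≠ 0 := by
  classical
  have := Fintype.ofFinite Γ
  by_contra hcon
  push Not at hcon
  let F : Γ → W := fun k => k • v + k⁻¹ • v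
  have hF : ∀ k, F k = k • v + k⁻¹ • v := fun _ => rfl
  have h1 := sum_smul_eq_zero K hW v
  have h2 : ∑ k ∈ Finset.univ.filter (· ∈ K), k⁻¹ • v = 0 := by
    rw [← h1]
    refine Finset.sum_bij (fun x _ => x⁻¹) ?_ ?_ ?_ ?_
    · intro x hx
      simp only [Finset.mem_filter, Finset.mem_univ, true_and] at hx ⊢
      exact inv_mem hx
    · intro x _ y _ h
      exact inv_injective h
    · intro x hx
      simp only [Finset.mem_filter, Finset.mem_univ, true_and] at hx
      refine ⟨x⁻¹, ?_, by simp⟩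
      simp only [Finset.mem_filter, Finset.mem_univ, true_and]
      exact inv_mem hx
    · intro x _; rfl
  have h3 : ∑ k ∈ Finset.univ.filter (· ∈ K), F k = 0 := by
    simp only [hF, Finset.sum_add_distrib, h1, h2, add_zero]
  -- the sum over the nonidentity elements
  let S : Finset Γ := (Finset.univ.filter (· ∈ K)).erase 1
  have hS : ∀ x, x ∈ S ↔ x ∈ K ∧ x ≠ 1 := by
    intro x
    simp only [S, Finset.mem_erase, Finset.mem_filter, Finset.mem_univ, true_and]
    tauto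
  have h4 : F 1 + ∑ k ∈ S, F k = 0 := by
    rw [← h3]
    exact Finset.add_sum_erase _ _ (by simp)
  let R : Setoid Γ :=
    { r := fun x y => ∃ a : A, (a : Γ) * y * (a : Γ)⁻¹ = x
      iseqv :=
        { refl := fun x => ⟨1, by simp⟩
          symm := by
            rintro x y ⟨a, ha⟩
            refine ⟨a⁻¹, ?_⟩
            rw [← ha, Subgroup.coe_inv]
            group
          trans := by
            rintro x y z ⟨a, ha⟩ ⟨b, hb⟩
            refine ⟨a * b, ?_⟩
            rw [← ha, ← hb, Subgroup.coe_mul]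
            group } }
  have h5 : ∑ k ∈ S, F k = 0 := by
    refine Finset.sum_cancels_of_partition_cancels R ?_
    intro x hx
    obtain ⟨hxK, hx1⟩ := (hS x).mp hx
    have h6 := hcon x hxK hx1
    rw [← h6]
    have h7 : ∀ y, y ∈ S.filter (fun a => R a x) ↔ ∃ a : A, (a : Γ) * x * (a : Γ)⁻¹ = y := by
      intro y
      rw [Finset.mem_filter, hS]
      constructor
      · rintro ⟨-, h⟩; exact h
      · rintro ⟨a, rfl⟩
        refine ⟨⟨((Subgroup.mem_normalizer_iff.mp (hAK a.2)) x).mp hxK, ?_⟩, a, rfl⟩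
        intro h
        apply hx1
        rwa [conj_eq_one_iff] at h
    exact Finset.sum_subtype _ h7 F
  rw [h5, add_zero, hF, inv_one, one_smul] at h4
  have h6 : (2 : ZMod p) • v = 0 := by
    rw [two_smul]; exact h4
  rcases smul_eq_zero.mp h6 with h7 | h7
  · have h10 : ((2 : ℕ) : ZMod p) = 0 := by exact_mod_cast h7
    rw [ZMod.natCast_eq_zero_iff] at h10
    exact hp2 ((Nat.prime_dvd_prime_iff_eq Fact.out Nat.prime_two).mp h10)
  · exact hv h7

theorem exists_good (hp : 5 ≤ p) (K A : Subgroup Γ) (hAK : A ≤ Subgroup.normalizer (K : Set Γ))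
    (hA : IsPGroup p A) (hfix : ∀ k ∈ K, (∀ a ∈ A, a * k = k * a) → k = 1)
    (hW : ∀ w : W, (∀ k ∈ K, k • w = w) → w = 0) (v : W) (hv : v ≠ 0)
    (hAv : ∀ a ∈ A, a • v = v) :
    ∃ k ∈ K, ∃ a₀ ∈ A, ∀ a ∈ A, ∃ b ∈ A,
      b • (a₀ • (k • v + k⁻¹ • v) + a₀ • (k • v + k⁻¹ • v) - a • (k • v + k⁻¹ • v) -
        (k • v + k⁻¹ • v)) ≠
      a₀ • (k • v + k⁻¹ • v) + a₀ • (k • v + k⁻¹ • v) - a • (k • v + k⁻¹ • v) -
        (k • v + k⁻¹ • v) := by
  classical
  obtain ⟨k, hk, hk1, hsum⟩ := exists_orbit (p := p) (by omega) K A hAK hW v hv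
  have h1 : ¬ ∀ a ∈ A, a * k = k * a := fun h => hk1 (hfix k hk h)
  push Not at h1
  obtain ⟨a₀, ha₀, hne⟩ := h1
  refine ⟨k, hk, a₀, ha₀, ?_⟩
  intro a ha
  let w : Cls A k → W := fun t => t.1 • v + t.1⁻¹ • v
  have hAi : ∀ a ∈ A, a⁻¹ • v = v := fun a ha => hAv _ (inv_mem ha)
  have hw' : ∀ (a : Γ) (x : Γ), a ∈ A → a • (x • v + x⁻¹ • v) =
      (a * x * a⁻¹) • v + (a * x * a⁻¹)⁻¹ • v := by
    intro a x ha
    have e : (a * x * a⁻¹)⁻¹ = a * x⁻¹ * a⁻¹ := by group
    rw [e, smul_add, mul_smul, mul_smul, mul_smul, mul_smul, hAi a ha]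
  have hw : ∀ (a : A) (t : Cls A k), a • w t = w (a • t) := by
    intro a t
    change (a : Γ) • (t.1 • v + t.1⁻¹ • v) = _
    rw [hw' a t.1 a.2]
    rfl
  let t1 : Cls A k := ⟨k, 1, by simp⟩
  let t0 : Cls A k := ⟨a₀ * k * a₀⁻¹, ⟨a₀, ha₀⟩, rfl⟩
  let t2 : Cls A k := ⟨a * k * a⁻¹, ⟨a, ha⟩, rfl⟩
  have h01 : t0 ≠ t1 := by
    intro h
    apply hne
    have h2 : a₀ * k * a₀⁻¹ = k := congrArg Subtype.val h
    rw [mul_inv_eq_iff_eq_mul] at h2
    exact h2
  have hcard : 4 ≤ Fintype.card (Cls A k) := by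
    obtain ⟨n, hn⟩ := hA.card_orbit t1
    rw [MulAction.orbit_eq_univ, Nat.card_univ, Nat.card_eq_fintype_card] at hn
    have h3 : 1 < Fintype.card (Cls A k) := Fintype.one_lt_card_iff.mpr ⟨t0, t1, h01⟩
    rw [hn] at h3 ⊢
    have h4 : n ≠ 0 := by
      rintro rfl
      simp at h3
    calc 4 ≤ p := by omega
      _ ≤ p ^ n := Nat.le_self_pow h4 p
  obtain ⟨b, hb⟩ := exists_smul_ne (p := p) (by omega) hA w hw hsum hcard t2 h01
  refine ⟨b, b.2, ?_⟩
  have e0 : w t0 = a₀ • (k • v + k⁻¹ • v) := (hw' a₀ k ha₀).symm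
  have e1 : w t1 = k • v + k⁻¹ • v := rfl
  have e2 : w t2 = a • (k • v + k⁻¹ • v) := (hw' a k ha).symm
  rw [e0, e1, e2] at hb
  exact hb

end main

end Cfsg.Agent.H278.OrbitIndep
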